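import Cfsg.Agent.H812.TC.Gen
import Cfsg.Agent.H812.TC.OddRow

/-!
# S2464, row `PSp_4(q)`, `q = 5, 7`: the normal forms (helper812)
-/

set_option autoImplicit false

namespace Cfsg.Agent.H812.TC.Small

open Matrix Polynomial Deg Gen

/-- the condition on `l` -/
def L {F : Type*} [CommRing F] [DecidableEq F] (t l g ε ζ η : F) : Bool :=
  decide (l ≠ 0) && decide (t - l * g ≠ 0) && decide (η - ζ * l * t ≠ 0) &&
    decide (l * (η - ζ * l * t) ≠ ε * (t - l * g)) && decide (l * (η - ζ * l * t) ≠ -(ε * (t - l * g)))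

theorem seven : ∀ ε ζ η g : ZMod 7, ε ≠ 0 → ζ ≠ 0 → ∃ l, L 6 l g ε ζ η = true ∨ L 6 l (-g) (-ε) (-ζ) (-η) = true := by
  decide +kernel

theorem five : ∀ ε ζ η g : ZMod 5, ε ≠ 0 → ζ ≠ 0 →
    (decide (η = 0) && decide (g = 0) && (decide (ζ = ε) || decide (ζ = -ε))) = true ∨
    ∃ l, L 4 l g ε ζ η = true ∨ L 4 l (-g) (-ε) (-ζ) (-η) = true := by
  decide +kernel

theorem good_of_L {F : Type*} [Field F] [DecidableEq F] {t e ε ζ η a b c l : F} (hε : ε ≠ 0) (hζ : ζ ≠ 0)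
    (h : L t l ((ζ * b - η * a) * ε⁻¹) ε ζ η = true ∨ L t l (-((ζ * b - η * a) * ε⁻¹)) (-ε) (-ζ) (-η) = true) :
    Good t e (NN ε ζ η a b c) := by
  rcases h with h | h
  · simp only [L, Bool.and_eq_true, decide_eq_true_eq] at h
    obtain ⟨⟨⟨⟨h0, h1⟩, h2⟩, h3⟩, h4⟩ := h
    exact good_NN_of hε hζ h0 h1 h2 h3 h4
  · simp only [L, Bool.and_eq_true, decide_eq_true_eq] at h
    obtain ⟨⟨⟨⟨h0, h1⟩, h2⟩, h3⟩, h4⟩ := h
    have hg : -((ζ * b - η * a) * ε⁻¹) = (-ζ * -b - -η * -a) * (-ε)⁻¹ := by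
      field_simp
    rw [hg] at h1 h3 h4
    have h5 : Good t e (NN (-ε) (-ζ) (-η) (-a) (-b) (-c)) :=
      good_NN_of (neg_ne_zero.2 hε) (neg_ne_zero.2 hζ) h0 h1 h2 h3 h4
    rw [← neg_NN] at h5
    have h6 := h5.neg
    rwa [neg_neg] at h6

theorem good_seven {ε ζ η a b c : ZMod 7} [Fact (Nat.Prime 7)] (hε : ε ≠ 0) (hζ : ζ ≠ 0) {e : ZMod 7} :
    Good 6 e (NN ε ζ η a b c) := by
  obtain ⟨l, hl⟩ := seven ε ζ η ((ζ * b - η * a) * ε⁻¹) hε hζ
  exact good_of_L hε hζ hl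

/-! ### characteristic polynomials of symplectic matrices -/

def e1 {F : Type*} [CommRing F] (M : Matrix (Fin 4) (Fin 4) F) : F := M 0 0 + M 1 1 + M 2 2 + M 3 3

def e2 {F : Type*} [CommRing F] (M : Matrix (Fin 4) (Fin 4) F) : F :=
  M 0 0 * M 1 1 - M 0 1 * M 1 0 + (M 0 0 * M 2 2 - M 0 2 * M 2 0) + (M 0 0 * M 3 3 - M 0 3 * M 3 0)
      + (M 1 1 * M 2 2 - M 1 2 * M 2 1) + (M 1 1 * M 3 3 - M 1 3 * M 3 1) + (M 2 2 * M 3 3 - M 2 3 * M 3 2)

theorem charpoly_gen {F : Type*} [Field F] (M : Matrix (Fin 4) (Fin 4) F) : ∃ e3 : F,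
    M.charpoly = X ^ 4 - C (e1 M) * X ^ 3 + C (e2 M) * X ^ 2 - C e3 * X + C M.det := by
  refine ⟨M 0 0 * (M 1 1 * M 2 2 - M 1 2 * M 2 1) - M 0 1 * (M 1 0 * M 2 2 - M 1 2 * M 2 0)
        + M 0 2 * (M 1 0 * M 2 1 - M 1 1 * M 2 0)
      + (M 0 0 * (M 1 1 * M 3 3 - M 1 3 * M 3 1) - M 0 1 * (M 1 0 * M 3 3 - M 1 3 * M 3 0)
        + M 0 3 * (M 1 0 * M 3 1 - M 1 1 * M 3 0))
      + (M 0 0 * (M 2 2 * M 3 3 - M 2 3 * M 3 2) - M 0 2 * (M 2 0 * M 3 3 - M 2 3 * M 3 0)
        + M 0 3 * (M 2 0 * M 3 2 - M 2 2 * M 3 0))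
      + (M 1 1 * (M 2 2 * M 3 3 - M 2 3 * M 3 2) - M 1 2 * (M 2 1 * M 3 3 - M 2 3 * M 3 1)
        + M 1 3 * (M 2 1 * M 3 2 - M 2 2 * M 3 1)), ?_⟩
  rw [Matrix.charpoly, Matrix.det_succ_row_zero, Matrix.det_succ_row_zero]
  simp only [Fin.sum_univ_succ, Matrix.det_fin_three, Matrix.charmatrix_apply, Matrix.submatrix_apply,
    Matrix.diagonal_apply, e1, e2]
  simp [Fin.succAbove]
  ring

theorem charpoly_sp {F : Type} [Field F] {M : Matrix (Fin 4) (Fin 4) F} (hM : Sp M) :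
    M.charpoly = pol (e1 M) (e2 M) := by
  obtain ⟨A, rfl⟩ := OddRow.toF.surjective M
  obtain ⟨a, b, hab⟩ := H374.SpChar.charpoly_four (OddRow.sp_toF.1 hM)
  have h1 : (OddRow.toF A).charpoly = pol a b := by rw [OddRow.charpoly_toF]; exact hab
  obtain ⟨e3, h2⟩ := charpoly_gen (OddRow.toF A)
  rw [h1] at h2
  have c3 := congrArg (fun p => coeff p 3) h2
  have c2 := congrArg (fun p => coeff p 2) h2
  simp [pol, coeff_one] at c3 c2
  rw [h1, c3, c2]

/-- the inverse -/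
def iv {F : Type*} [CommRing F] (A : Matrix (Fin 4) (Fin 4) F) : Matrix (Fin 4) (Fin 4) F :=
  !![A 2 2, A 3 2, -A 0 2, -A 1 2; A 2 3, A 3 3, -A 0 3, -A 1 3; -A 2 0, -A 3 0, A 0 0, A 1 0;
    -A 2 1, -A 3 1, A 0 1, A 1 1]

theorem iv_mul {F : Type*} [Field F] {A : Matrix (Fin 4) (Fin 4) F} (hA : Sp A) : A * iv A = 1 := by
  have h : Aᵀ * J4 * A = J4 := hA
  have h1 : iv A = -(J4 * Aᵀ * J4) := by
    ext i j
    fin_cases i <;> fin_cases j <;> simp [iv, J4, Matrix.mul_apply, Fin.sum_univ_succ, -Matrix.cons_mul]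
  have h2 : iv A * A = 1 := by
    have h0 : iv A * A = -(J4 * (Aᵀ * J4 * A)) := by
      rw [h1]; simp only [Matrix.neg_mul, Matrix.mul_assoc]
    rw [h, J4_mul, neg_neg] at h0
    exact h0
  exact mul_eq_one_comm.1 h2

/-- `A⁻¹ G` -/
def BB {F : Type*} [CommRing F] (A : Matrix (Fin 4) (Fin 4) F) (ε ζ a c : F) : Matrix (Fin 4) (Fin 4) F :=
  !![-(ε * A 0 2), -(ζ * A 1 2), -(ε ^ 3 * A 2 2) - c * A 0 2, -(ζ ^ 3 * A 3 2) - a * A 1 2;
    -(ε * A 0 3), -(ζ * A 1 3), -(ε ^ 3 * A 2 3) - c * A 0 3, -(ζ ^ 3 * A 3 3) - a * A 1 3;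
    ε * A 0 0, ζ * A 1 0, ε ^ 3 * A 2 0 + c * A 0 0, ζ ^ 3 * A 3 0 + a * A 1 0;
    ε * A 0 1, ζ * A 1 1, ε ^ 3 * A 2 1 + c * A 0 1, ζ ^ 3 * A 3 1 + a * A 1 1]

theorem BB_eq {F : Type*} [Field F] {A : Matrix (Fin 4) (Fin 4) F} {ε ζ a c : F} (h1 : ε⁻¹ = ε ^ 3) (h2 : ζ⁻¹ = ζ ^ 3) :
    BB A ε ζ a c = iv A * NN ε ζ 0 a 0 c := by
  ext i j
  fin_cases i <;> fin_cases j <;> simp [BB, iv, NN, Matrix.mul_apply, Fin.sum_univ_succ, h1, h2] <;> ring

def spb {F : Type*} [CommRing F] [DecidableEq F] (A : Matrix (Fin 4) (Fin 4) F) : Bool :=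
  decide (A 0 0 * A 2 1 + A 1 0 * A 3 1 - A 2 0 * A 0 1 - A 3 0 * A 1 1 = 0) &&
  decide (A 0 0 * A 2 2 + A 1 0 * A 3 2 - A 2 0 * A 0 2 - A 3 0 * A 1 2 = 1) &&
  decide (A 0 0 * A 2 3 + A 1 0 * A 3 3 - A 2 0 * A 0 3 - A 3 0 * A 1 3 = 0) &&
  decide (A 0 1 * A 2 2 + A 1 1 * A 3 2 - A 2 1 * A 0 2 - A 3 1 * A 1 2 = 0) &&
  decide (A 0 1 * A 2 3 + A 1 1 * A 3 3 - A 2 1 * A 0 3 - A 3 1 * A 1 3 = 1) &&
  decide (A 0 2 * A 2 3 + A 1 2 * A 3 3 - A 2 2 * A 0 3 - A 3 2 * A 1 3 = 0)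

theorem sp_of_spb {F : Type*} [Field F] [DecidableEq F] {A : Matrix (Fin 4) (Fin 4) F} (h : spb A = true) : Sp A := by
  simp only [spb, Bool.and_eq_true, decide_eq_true_eq] at h
  obtain ⟨⟨⟨⟨⟨h1, h2⟩, h3⟩, h4⟩, h5⟩, h6⟩ := h
  exact sp_mk A h1 h2 h3 h4 h5 h6

theorem sp_NN {F : Type*} [Field F] {ε ζ η a b c : F} (hε : ε ≠ 0) (hζ : ζ ≠ 0) : Sp (NN ε ζ η a b c) := by
  refine sp_mk _ ?_ ?_ ?_ ?_ ?_ ?_ <;> simp [NN] <;> field_simp <;> ring

def MT (n : ℕ) : Matrix (Fin 4) (Fin 4) (ZMod 5) :=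
  !![(n % 5 : ℕ), (n / 5 % 5 : ℕ), (n / 25 % 5 : ℕ), (n / 125 % 5 : ℕ);
    (n / 625 % 5 : ℕ), (n / 3125 % 5 : ℕ), (n / 15625 % 5 : ℕ), (n / 78125 % 5 : ℕ);
    (n / 390625 % 5 : ℕ), (n / 1953125 % 5 : ℕ), (n / 9765625 % 5 : ℕ), (n / 48828125 % 5 : ℕ);
    (n / 244140625 % 5 : ℕ), (n / 1220703125 % 5 : ℕ), (n / 6103515625 % 5 : ℕ), (n / 30517578125 % 5 : ℕ)]

def chk (n : ℕ) (ε ζ a c : ZMod 5) : Bool :=
  spb (MT n) && decide (e1 (MT n) = 4) && decide (e2 (MT n) = 4) && decide (e1 (BB (MT n) ε ζ a c) = 4) &&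
    decide (e2 (BB (MT n) ε ζ a c) = 4)

def ep : Fin 8 → ZMod 5 := ![1, 1, 2, 2, 3, 3, 4, 4]
def ze : Fin 8 → ZMod 5 := ![1, 4, 2, 3, 2, 3, 1, 4]

def tab : List ℕ := [
  152430050546, 94080866541, 83730593983, 71978010799, 136187088977, 39263757351, 17541608689, 127966706606,
  58364802661, 109645594259, 88822870594, 93063378406, 62623028806, 134155831427, 72607147026, 830843515,
  19079474145, 10668126657, 62623028806, 121815596398, 936537263, 29426709964, 58382792482, 71699108427,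
  127966706606, 936537263, 59126601747, 29426709964, 8639692169, 130547021256, 95971138580, 111957532477,
  5368635637, 44119949993, 127966706606, 8639692169, 87801031248, 135194953862, 58364802661, 35832817713,
  152572544188, 26013722835, 152430050546, 91526878229, 136187088977, 83730593983, 125201142695, 14205655546,
  20470543864, 140784784034, 83730593983, 62623028806, 139897232146, 109645594259, 936537263, 82646970624,
  15424572277, 62623028806, 16474343704, 121170585252, 35832817713, 26013722835, 127966706606, 126428811740,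
  148574961184, 20963599137, 140784784034, 128453795078, 97140402976, 152430050546, 58364802661, 112918862389,
  115629830821, 71978010799, 19079474145, 55928597315, 140784784034, 115629830821, 83730593983, 138458453882,
  109964569034, 134155831427, 19079474145, 71978010799, 25061941852, 140461787066, 109645594259, 14577499498,
  130547021256, 14205655546, 111957532477, 39288290358, 936537263, 8639692169, 87801031248, 137137408568,
  130547021256, 20470543864, 58382792482, 95971138580, 97140402976, 830843515, 8639692169, 936537263, 50719767745,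
  147676847517, 137137408568, 14205655546, 126428811740, 123701868311, 122487618336, 152430050546, 121815596398,
  14205655546, 19079474145, 130547021256, 134155831427, 95971138580, 136187088977, 87801031248, 50719767745,
  8639692169, 40880197219, 59126601747, 130547021256, 95971138580, 83730593983, 5368635637, 2686494936,
  125201142695, 25061941852, 830843515, 139897232146, 29426709964, 109645594259, 29426709964, 125201142695,
  25061941852, 35832817713, 62623028806, 125201142695, 936537263, 87801031248, 149141466029, 135194953862,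
  93063378406, 62623028806, 55928597315, 14205655546, 87801031248, 93063378406, 936537263, 97140402976,
  140784784034, 8639692169, 8639692169, 95971138580, 25061941852, 111957532477, 109964569034, 5368635637,
  152362385216, 121815596398, 60262972662, 35832817713, 126428811740, 10668126657, 14577499498, 40460890491,
  16474343704, 19079474145, 83730593983, 87801031248, 149141466029, 14205655546, 19079474145, 97140402976,
  34058413644, 62623028806, 35832817713, 25061941852, 936537263, 16474343704, 58364802661, 50719767745,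
  62623028806, 5368635637, 25061941852, 50719767745, 134155831427, 109964569034, 50719767745, 127966706606,
  140784784034, 138526683557, 50719767745, 13140774962, 14205655546, 123701868311, 830843515]

theorem tab_ok : ∀ (k : Fin 8) (a c : Fin 5), chk (tab.getD (25 * k.1 + 5 * a.1 + c.1) 0) (ep k) (ze k)
    (a.1 : ℕ) (c.1 : ℕ) = true := by
  decide +kernel


theorem exists_k : ∀ ε ζ : ZMod 5, ε ≠ 0 → (ζ = ε ∨ ζ = -ε) → ∃ k, ep k = ε ∧ ze k = ζ := by decide

theorem mul_cube_five : ∀ ε : ZMod 5, ε ≠ 0 → ε * ε ^ 3 = 1 := by decide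

theorem inv_five [Fact (Nat.Prime 5)] : ∀ ε : ZMod 5, ε ≠ 0 → ε⁻¹ = ε ^ 3 := fun ε h =>
  inv_eq_of_mul_eq_one_right (mul_cube_five ε h)

theorem good_tab [Fact (Nat.Prime 5)] {n : ℕ} {ε ζ a c : ZMod 5} (hε : ε ≠ 0) (hζ : ζ ≠ 0) (h : chk n ε ζ a c = true) :
    Good 4 4 (NN ε ζ 0 a 0 c) := by
  simp only [chk, Bool.and_eq_true, decide_eq_true_eq] at h
  obtain ⟨⟨⟨⟨h0, h1⟩, h2⟩, h3⟩, h4⟩ := h
  have hA : Sp (MT n) := sp_of_spb h0
  have hAi : Sp (iv (MT n)) := sp_inv hA (iv_mul hA)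
  have hB : Sp (BB (MT n) ε ζ a c) := by
    rw [BB_eq (inv_five ε hε) (inv_five ζ hζ)]
    exact hAi.mul (sp_NN hε hζ)
  refine ⟨MT n, BB (MT n) ε ζ a c, hA, hB, Or.inl ?_, ?_, ?_⟩
  · rw [BB_eq (inv_five ε hε) (inv_five ζ hζ), ← Matrix.mul_assoc, iv_mul hA, Matrix.one_mul]
  · rw [charpoly_sp hA, h1, h2]
  · rw [charpoly_sp hB, h3, h4]

theorem good_five [Fact (Nat.Prime 5)] {ε ζ η a b c : ZMod 5} (hε : ε ≠ 0) (hζ : ζ ≠ 0) :
    Good 4 4 (NN ε ζ η a b c) := by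
  rcases five ε ζ η ((ζ * b - η * a) * ε⁻¹) hε hζ with h | ⟨l, hl⟩
  · simp only [Bool.and_eq_true, Bool.or_eq_true, decide_eq_true_eq] at h
    obtain ⟨⟨h1, h2⟩, h3⟩ := h
    subst h1
    have hb : b = 0 := by
      rw [zero_mul, sub_zero] at h2
      rcases mul_eq_zero.1 h2 with h4 | h4
      · exact (mul_eq_zero.1 h4).resolve_left hζ
      · exact absurd h4 (inv_ne_zero hε)
    subst hb
    obtain ⟨k, rfl, rfl⟩ := exists_k ε ζ hε h3
    have h5 := tab_ok k ⟨a.val, a.val_lt⟩ ⟨c.val, c.val_lt⟩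
    simp only [ZMod.natCast_val, ZMod.cast_id', id_eq] at h5
    exact good_tab hε hζ h5
  · exact good_of_L hε hζ hl

/-! ### transport -/

theorem Sp.map {K F : Type*} [Field K] [Field F] (φ : K →+* F) {M : Matrix (Fin 4) (Fin 4) K} (h : Sp M) :
    Sp (M.map φ) := by
  have h' : Mᵀ * J4 * M = J4 := h
  have hJ : (J4 : Matrix (Fin 4) (Fin 4) K).map φ = J4 := by
    ext i j
    fin_cases i <;> fin_cases j <;> simp [J4]
  have h2 := congrArg (fun N => N.map φ) h'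
  simp only [Matrix.map_mul, hJ] at h2
  exact h2

theorem pol_map {K F : Type*} [Field K] [Field F] (φ : K →+* F) (t e : K) : (pol t e).map φ = pol (φ t) (φ e) := by
  simp [pol]

theorem Good.map {K F : Type*} [Field K] [Field F] (φ : K →+* F) {t e : K} {M : Matrix (Fin 4) (Fin 4) K}
    (h : Good t e M) : Good (φ t) (φ e) (M.map φ) := by
  obtain ⟨A, B, hA, hB, hAB, h1, h2⟩ := h
  refine ⟨A.map φ, B.map φ, Sp.map φ hA, Sp.map φ hB, ?_, ?_, ?_⟩
  · rw [← Matrix.map_mul]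
    rcases hAB with h | h
    · left; rw [h]
    · right
      rw [h]
      ext i j
      simp
  · rw [← pol_map, ← h1, Matrix.charpoly_map]
  · rw [← pol_map, ← h2, Matrix.charpoly_map]

theorem NN_map {K F : Type*} [Field K] [Field F] (φ : K →+* F) (ε ζ η a b c : K) :
    (NN ε ζ η a b c).map φ = NN (φ ε) (φ ζ) (φ η) (φ a) (φ b) (φ c) := by
  ext i j
  fin_cases i <;> fin_cases j <;> simp [NN]

theorem m2 : MT 33449156154 * MT 33449156154 = MT 74063043868 := by decide +kernel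
theorem m4 : MT 74063043868 * MT 74063043868 = MT 60377020258 := by decide +kernel
theorem m8 : MT 60377020258 * MT 60377020258 = MT 143220189810 := by decide +kernel
theorem m13 : MT 143220189810 * MT 60377020258 * MT 33449156154 = 1 := by decide +kernel
theorem m1 : MT 33449156154 ≠ 1 := by decide +kernel
theorem m0 : (spb (MT 33449156154) && decide (e1 (MT 33449156154) = 4) && decide (e2 (MT 33449156154) = 4)) = true := by decide +kernel

/-- the element of order 13 -/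
theorem elt_five [Fact (Nat.Prime 5)] : ∃ M : Matrix (Fin 4) (Fin 4) (ZMod 5), Sp M ∧ M.charpoly = pol 4 4 ∧
    M ^ 13 = 1 ∧ M ≠ 1 := by
  have h := m0
  simp only [Bool.and_eq_true, decide_eq_true_eq] at h
  obtain ⟨⟨h0, h1⟩, h2⟩ := h
  have hA := sp_of_spb h0
  refine ⟨MT 33449156154, hA, by rw [charpoly_sp hA, h1, h2], ?_, m1⟩
  have e2' : (MT 33449156154) ^ 2 = MT 74063043868 := by rw [pow_two, m2]
  have e4' : (MT 33449156154) ^ 4 = MT 60377020258 := (pow_mul (MT 33449156154) 2 2).trans (by rw [e2', pow_two, m4])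
  have e8' : (MT 33449156154) ^ 8 = MT 143220189810 := (pow_mul (MT 33449156154) 4 2).trans (by rw [e4', pow_two, m8])
  have e12' : (MT 33449156154) ^ 12 = MT 143220189810 * MT 60377020258 := (pow_add (MT 33449156154) 8 4).trans (by rw [e8', e4'])
  exact (pow_succ (MT 33449156154) 12).trans (by rw [e12', m13])

theorem order_five_a : ¬((5 : ℕ) : ZMod 13) ^ 2 ^ 1 = 1 := by decide
theorem order_five_b : ((5 : ℕ) : ZMod 13) ^ 2 ^ (1 + 1) = 1 := by decide

theorem order_five : orderOf ((5 : ℕ) : ZMod 13) = 4 := orderOf_eq_prime_pow order_five_a order_five_b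

/-- **`PSp₄(5)`** -/
theorem row3_psp_two_five {F : Type} [Field F] [Fintype F] (hF : Fintype.card F = 5) : H210.TC.Row3 (Cfsg.PSp 2 F) := by
  have h5 : Fact (Nat.Prime 5) := ⟨by norm_num⟩
  let ψ : ZMod 5 ≃+* F := ZMod.ringEquivOfPrime F h5.out hF
  let φ : ZMod 5 →+* F := ψ.toRingHom
  have hφ : Function.Surjective φ := ψ.surjective
  have hφi : Function.Injective φ := ψ.injective
  obtain ⟨M, hM, hMp, hM13, hM1⟩ := elt_five
  obtain ⟨A, hA⟩ := OddRow.toF.surjective (M.map φ)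
  have hAs : Sp (OddRow.toF A) := by rw [hA]; exact Sp.map φ hM
  let x : symplecticGroup (Fin 2) F := ⟨A, OddRow.sp_toF.1 hAs⟩
  have h4 : φ 4 = 4 := map_ofNat φ 4
  have hxp : x.1.charpoly = pol 4 4 := by
    show A.charpoly = _
    rw [← OddRow.charpoly_toF, hA, Matrix.charpoly_map, hMp, pol_map, h4]
  have hx13 : x ^ 13 = 1 := by
    apply Subtype.ext
    rw [SubmonoidClass.coe_pow]
    show A ^ 13 = 1
    apply OddRow.toF.injective
    rw [map_pow, hA, map_one]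
    have h6 : (M.map φ) = φ.mapMatrix M := rfl
    rw [h6, ← map_pow, hM13, map_one]
  have hx1 : x ≠ 1 := by
    intro h
    apply hM1
    have h7 : A = 1 := congrArg Subtype.val h
    rw [h7, map_one] at hA
    have h8 : φ.mapMatrix (1 : Matrix (Fin 4) (Fin 4) (ZMod 5)) = φ.mapMatrix M := by
      rw [map_one]; exact hA
    ext i j
    have h9 := congrFun (congrFun h8 i) j
    exact (hφi h9).symm
  have h13 : Fact (Nat.Prime 13) := ⟨by norm_num⟩
  have hx : orderOf x = 13 := orderOf_eq_prime hx13 hx1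
  have ho : orderOf ((Fintype.card F : ℕ) : ZMod 13) = 4 := by
    rw [hF]
    exact order_five
  refine OddRow.row3_odd (by rw [hF]) (by rw [hF]; norm_num) (by norm_num : Nat.Prime 13) (by norm_num) ho hx hxp ?_
  intro G hG u v a1 a2 a3 a4
  refine good_frame_of ?_ hG a1 a2 a3 a4
  intro ε ζ η a b c hε hζ
  obtain ⟨ε, rfl⟩ := hφ ε
  obtain ⟨ζ, rfl⟩ := hφ ζ
  obtain ⟨η, rfl⟩ := hφ η
  obtain ⟨a, rfl⟩ := hφ a
  obtain ⟨b, rfl⟩ := hφ b
  obtain ⟨c, rfl⟩ := hφ c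
  rw [← NN_map, ← h4]
  exact Good.map φ (good_five (fun h => hε (by rw [h, map_zero])) (fun h => hζ (by rw [h, map_zero])))

end Cfsg.Agent.H812.TC.Small
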